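import Cfsg.Agent.H56.OreKit

/-! ORE tower, chapter 1: jobs `JobO1`, `JobO2`. -/

set_option autoImplicit false
set_option linter.unusedSectionVars false

namespace H82.Ore

open Module QuadraticMap H56 H56.Ore

universe u

variable {F V : Type u} [Field F] [Fintype F] [AddCommGroup V] [Module F V] [FiniteDimensional F V]
  {Q : QuadraticForm F V} (hQ : Q.polarBilin.Nondegenerate)

theorem split (h2 : (2 : F) ≠ 0) (g : O Q) (W : Submodule F V) (hW : ∀ x ∈ W, g x ∈ W)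
    (hd : Disjoint W (perp Q W)) :
    ∃ (h1 : (Q.restrict W).polarBilin.Nondegenerate)
      (h2 : (Q.restrict (perp Q W)).polarBilin.Nondegenerate) (g1 : O (Q.restrict W))
      (g2 : O (Q.restrict (perp Q W))), (∀ x, (g1 x : V) = g x) ∧ (∀ x, (g2 x : V) = g x) ∧
      ∀ a b x a' b' y, Pr h1 g1 a b x → Pr h2 g2 a' b' y → Pr hQ g (a + a') (b + b') (x * y) := by
  obtain ⟨g1, g2, e, he, -, h3, h4, h5⟩ := exists_split hQ g hd hW
  exact ⟨nondeg_res hd, nondeg_res (disjoint_perp_perp hQ hd), g1, g2, h3, h4,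
    fun _ _ _ _ _ _ a b => h5 ▸ (a.prod h2 b).congr h2 e he⟩

theorem neg (h2 : (2 : F) ≠ 0) {g : O Q} {a b a' b' : ℕ} {x : SqCl F} (h : Pr hQ g a b x)
    (ha : a' + a = finrank F V) (hb : b' + b = finrank F V) : ∃ y, Pr hQ g a' b' y :=
  ⟨spinor hQ (O.negOne Q) * x, by convert (h.neg h2).2.2 using 1 <;> omega⟩

theorem even {g : O Q} {a b : ℕ} {x : SqCl F} (h : Pr hQ g a b x) (hg : dickson hQ g = 1) :
    Even (a + b) := by rwa [h.dickson, neg_one_pow_eq_one_iff_even (by decide)] at hg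

/-- the invariant of the induction -/
def Inv (g : O Q) : Prop := ∃ p m h, finrank F V = 2 * h + p + m ∧
  (∀ i ≤ p, ∀ j k, j + k = m → ∃ x, Pr hQ g (h + i + j) (h + i + k) x) ∧
  (1 ≤ p ∨ (∀ j k, j + k = m → ∀ x, Pr hQ g (h + j) (h + k) x) ∨
    (∃ v w, Q v ≠ 0 ∧ Q w ≠ 0 ∧ polar Q v w = 0 ∧ g v = -v ∧ g w = -w) ∨
    ∃ a b u, Even a ∧ a + b = finrank F V ∧ Pr hQ g a b (sqcl (-1) ^ (a / 2)) ∧
      3 * a ≤ 3 * b + finrank F V ∧ 5 * b ≤ 5 * a + finrank F V + 4 * u ∧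
      (u = 0 ∨ (u = 1 ∧ ∃ v, Q v ≠ 0 ∧ g v = -v)))

theorem inv_kg (h2 : (2 : F) ≠ 0) [Nontrivial V] {g : O Q} (h : KG hQ g) : Inv hQ g := by
  have n0 : 0 < finrank F V := finrank_pos
  rcases h with ⟨a, ea, h3, h4, h | ⟨h, h5⟩⟩ | ⟨a, h3, h⟩
  · rcases (by omega : finrank F V = 2 * a ∨ finrank F V = 2 * a + 1 ∨ finrank F V + 1 = 2 * a) with
      e | e | e
    · refine ⟨0, 0, a, e, fun i hi j k e' => ⟨sqcl (-1) ^ (a / 2), ?_⟩, .inr (.inr (.inr
        ⟨a, a, 0, ea, by omega, h, by omega, by omega, .inl rfl⟩))⟩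
      convert h using 1 <;> omega
    · refine ⟨1, 0, a, e, fun i hi j k e' => ?_, .inl le_rfl⟩
      rcases (by omega : i = 0 ∨ i = 1) with rfl | rfl
      exacts [⟨_, by convert h using 1 <;> omega⟩, neg hQ h2 h (by omega) (by omega)]
    · refine ⟨1, 0, a - 1, by omega, fun i hi j k e' => ?_, .inl le_rfl⟩
      rcases (by omega : i = 0 ∨ i = 1) with rfl | rfl
      exacts [neg hQ h2 h (by omega) (by omega), ⟨_, by convert h using 1 <;> omega⟩]
  · obtain ⟨c, rfl⟩ := ea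
    have H : ∃ u, 5 * (finrank F V - (c + c)) ≤ 5 * (c + c) + finrank F V + 4 * u ∧
        (u = 0 ∨ (u = 1 ∧ ∃ v, Q v ≠ 0 ∧ g v = -v)) := by
      by_cases e : finrank F V = 1
      · obtain ⟨x, hx⟩ := exists_ne (0 : V)
        obtain ⟨v, hv⟩ := exists_Q_ne_zero hQ hx
        exact ⟨1, by omega, .inr ⟨rfl, v, hv, h5 e v⟩⟩
      · exact ⟨0, by omega, .inl rfl⟩
    obtain ⟨u, u1, u2⟩ := H
    refine ⟨0, finrank F V % 2, finrank F V / 2, by omega, fun i hi j k e' => ?_, .inr (.inr (.inr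
      ⟨c + c, _, u, ⟨c, rfl⟩, by omega, h, by omega, u1, u2⟩))⟩
    by_cases e : finrank F V / 2 + i + j = c + c
    exacts [⟨_, by convert h using 1; omega⟩, neg hQ h2 h (by omega) (by omega)]
  · refine ⟨0, 0, a, h3, fun i hi j k e' => ⟨1, ?_⟩, .inr (.inl fun j k e' x => ?_)⟩ <;>
      convert h _ using 1 <;> omega

theorem inv_all (hI : JobInd.{u}) (h2 : (2 : F) ≠ 0) (g : O Q) : Inv hQ g := by
  induction hn : finrank F V using Nat.strong_induction_on generalizing V with | _ n ih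
  subst hn
  rcases subsingleton_or_nontrivial V with h0 | h0
  · have z : finrank F V = 0 := finrank_zero_of_subsingleton
    have k : Pr hQ g 0 0 1 := ⟨1, O.ext fun _ => Subsingleton.elim _ _, O.ext fun _ => Subsingleton.elim _ _,
      by have := O.rk_add_finrank_fix (1 : O Q); omega,
      by have := O.rk_add_finrank_fix (1 * g); omega, map_one _⟩
    refine ⟨0, 0, 0, z, fun i hi j k' e' => ⟨1, by convert k using 1 <;> omega⟩, .inr (.inr (.inr
      ⟨0, 0, 0, .zero, z.symm, by simpa using k, by omega, by omega, .inl rfl⟩))⟩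
  by_cases hi : Ind Q g.lin
  · exact inv_kg hQ h2 (hI hQ h2 g h0 hi)
  obtain ⟨W, hW, hd, n0, n1⟩ : ∃ W : Submodule F V, (∀ x ∈ W, g x ∈ W) ∧ Disjoint W (perp Q W) ∧
      W ≠ ⊥ ∧ W ≠ ⊤ := by
    by_contra! r
    exact hi fun W a b => (em (W = ⊥)).imp_right (r W a b)
  obtain ⟨q1, q2, g1, g2, e1, e2, add⟩ := split hQ h2 g W hW hd
  have f := finrank_perp hQ W
  have f0 : finrank F W ≠ 0 := mt Submodule.finrank_eq_zero.1 n0
  obtain ⟨p, m, h, a1, a2, a3⟩ := ih _ (Submodule.finrank_lt n1) q1 g1 rfl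
  obtain ⟨p', m', h', b1, b2, b3⟩ := ih _ (by omega) q2 g2 rfl
  have v1 : ∀ v : W, g1 v = -v → g v = -v := fun v e => by rw [← e1, e, Submodule.coe_neg]
  have v2 : ∀ v : perp Q W, g2 v = -v → g v = -v := fun v e => by rw [← e2, e, Submodule.coe_neg]
  refine ⟨p + p', m + m', h + h', by omega, fun i hi j k e => ?_, ?_⟩
  · obtain ⟨x, hx⟩ := a2 (min i p) (by omega) (min j m) (m - min j m) (by omega)
    obtain ⟨y, hy⟩ := b2 (i - min i p) (by omega) (j - min j m) (m' - (j - min j m)) (by omega)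
    exact ⟨_, by convert add _ _ _ _ _ _ hx hy using 1 <;> omega⟩
  rcases a3 with a3 | a3 | ⟨v, w, c1, c2, c3, c4, c5⟩ | ⟨a, b, t, c1, c2, c3, c4, c5, c6⟩
  · exact .inl (by omega)
  · refine .inr (.inl fun j k e x => ?_)
    obtain ⟨y, hy⟩ := b2 0 (by omega) (j - min j m) (m' - (j - min j m)) (by omega)
    convert add _ _ _ _ _ _ (a3 (min j m) (m - min j m) (by omega) (x * y⁻¹)) hy using 1
    exacts [by omega, by omega, (inv_mul_cancel_right _ _).symm]
  · exact .inr (.inr (.inl ⟨v, w, c1, c2, c3, v1 v c4, v1 w c5⟩))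
  rcases b3 with b3 | b3 | ⟨v, w, d1, d2, d3, d4, d5⟩ | ⟨a', b', t', d1, d2, d3, d4, d5, d6⟩
  · exact .inl (by omega)
  · refine .inr (.inl fun j k e x => ?_)
    obtain ⟨y, hy⟩ := a2 0 (by omega) (min j m) (m - min j m) (by omega)
    convert add _ _ _ _ _ _ hy (b3 (j - min j m) (m' - (j - min j m)) (by omega) (y⁻¹ * x)) using 1
    exacts [by omega, by omega, (mul_inv_cancel_left _ _).symm]
  · exact .inr (.inr (.inl ⟨v, w, d1, d2, d3, v2 v d4, v2 w d5⟩))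
  have s := add _ _ _ _ _ _ c3 d3
  rw [← pow_add, show a / 2 + a' / 2 = (a + a') / 2 by
    obtain ⟨x, rfl⟩ := c1; obtain ⟨y, rfl⟩ := d1; omega] at s
  have k := fun u x y => (⟨a + a', b + b', u, c1.add d1, by omega, s, by omega, x, y⟩ :
    ∃ a b u, Even a ∧ a + b = finrank F V ∧ Pr hQ g a b (sqcl (-1) ^ (a / 2)) ∧
      3 * a ≤ 3 * b + finrank F V ∧ 5 * b ≤ 5 * a + finrank F V + 4 * u ∧
      (u = 0 ∨ (u = 1 ∧ ∃ v, Q v ≠ 0 ∧ g v = -v)))
  rcases c6 with rfl | ⟨rfl, v, c6, c7⟩ <;> rcases d6 with rfl | ⟨rfl, w, d6, d7⟩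
  · exact .inr (.inr (.inr (k 0 (by omega) (.inl rfl))))
  · exact .inr (.inr (.inr (k 1 (by omega) (.inr ⟨rfl, w, d6, v2 w d7⟩))))
  · exact .inr (.inr (.inr (k 1 (by omega) (.inr ⟨rfl, v, c6, v1 v c7⟩))))
  · exact .inr (.inr (.inl ⟨v, w, c6, d6, mem_perp.1 w.2 v v.2, v1 v c7, v2 w d7⟩))

omit hQ in
theorem jobO1 (hI : JobInd.{u}) : JobO1.{u} := by
  intro F V _ _ _ _ _ Q hQ h2 g hg
  obtain ⟨p, m, h, a1, a2, -⟩ := inv_all hQ hI h2 g
  obtain ⟨x, hx⟩ := a2 0 (by omega) 0 m (by omega)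
  obtain ⟨c, hc⟩ := even hQ hx hg
  obtain ⟨y, hy⟩ := a2 (p / 2) (by omega) (m / 2) (m / 2) (by omega)
  exact ⟨_, y, hy, by omega, by omega⟩

omit hQ in
theorem jobO2 (hI : JobInd.{u}) : JobO2.{u} := by
  intro F V _ _ _ _ _ Q hQ h2 g hg h8
  obtain ⟨p, m, h, a1, a2, a3⟩ := inv_all hQ hI h2 g
  obtain ⟨x, hx⟩ := a2 0 (by omega) 0 m (by omega)
  obtain ⟨c, hc⟩ := even hQ hx hg
  by_cases p0 : 1 ≤ p
  · obtain ⟨y, hy⟩ := a2 (p / 2 - 1) (by omega) (m / 2) (m / 2) (by omega)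
    exact .inl ⟨y, by convert hy using 1 <;> omega⟩
  right
  rcases a3 with a3 | a3 | ⟨v, w, c1, c2, c3, c4, c5⟩ | ⟨a, b, t, ⟨d, c1⟩, c2, c3, c4, c5, c6⟩
  · exact absurd a3 p0
  · convert a3 (m / 2) (m / 2) (by omega) 1 using 1 <;> omega
  · have pv : ∀ v, Q v ≠ 0 → polar Q v v ≠ 0 := fun v hv => by
      rw [polar_self, two_nsmul, ← two_mul]; exact mul_ne_zero h2 hv
    have li : ∀ s t : F, polar Q v (s • v + t • w) = 0 → polar Q w (s • v + t • w) = 0 →
        s = 0 ∧ t = 0 := fun s t e e' => by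
      simp only [polar_add_right, polar_smul_right, polar_comm Q w v, c3, smul_eq_mul, mul_zero,
        add_zero, zero_add, mul_eq_zero, pv v c1, pv w c2, or_false] at e e'
      exact ⟨e, e'⟩
    have ng : ∀ x ∈ Submodule.span F {v, w}, g x = -x := fun x hx => by
      obtain ⟨s, t, rfl⟩ := Submodule.mem_span_pair.1 hx
      rw [map_add, map_smul, map_smul, c4, c5, smul_neg, smul_neg, neg_add]
    obtain ⟨q1, q2, g1, g2, e1, e2, add⟩ := split hQ h2 g (Submodule.span F {v, w})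
      (fun x hx => ng x hx ▸ neg_mem hx) (Submodule.disjoint_def.2 fun x hx hx' => by
        obtain ⟨s, t, rfl⟩ := Submodule.mem_span_pair.1 hx
        obtain ⟨rfl, rfl⟩ := li s t (mem_perp_span_pair.1 hx').1 (mem_perp_span_pair.1 hx').2
        simp)
    have f := finrank_perp hQ (Submodule.span F {v, w})
    have f2 := finrank_span_pair (LinearIndependent.pair_iff.2 fun s t e =>
      li s t (by rw [e, polar_zero_right]) (by rw [e, polar_zero_right]))
    have k : ∀ x, Pr q1 g1 1 1 x := fun x => by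
      obtain ⟨a, a0, rfl⟩ := sqcl_surjective x
      obtain ⟨z, rfl⟩ := H58.exists_Q_eq q1 f2.ge a
      have e : refl _ z * g1 = O.negOne _ * refl _ z := O.ext fun y => by
        rw [O.mul_apply, show g1 y = -y from Subtype.ext ((e1 y).trans (ng y y.2)), map_neg]; rfl
      have r := rk_neg h2 (refl_mul_self (Q := Q.restrict (Submodule.span F {v, w})) z)
      refine ⟨refl _ z, refl_mul_self z, ?_, rk_refl q1 a0, ?_, spinor_refl q1 z⟩
      · nth_rw 1 [e]
        rw [mul_assoc, ← mul_assoc (refl _ z), refl_mul_self, one_mul]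
        exact O.ext fun y => by
          rw [O.mul_apply, show g1 y = -y from Subtype.ext ((e1 y).trans (ng y y.2))]; simp
      · rw [rk_refl q1 a0] at r
        rw [e]; omega
    obtain ⟨p', m', h', b1, b2, -⟩ := inv_all q2 hI h2 g2
    obtain ⟨y, hy⟩ := b2 0 (by omega) 0 m' (by omega)
    obtain ⟨c', hc'⟩ := even hQ (add _ _ _ _ _ _ (k 1) hy) hg
    obtain ⟨y, hy⟩ := b2 (p' / 2) (by omega) (m' / 2) (m' / 2) (by omega)
    convert add _ _ _ _ _ _ (k y⁻¹) hy using 1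
    exacts [by omega, by omega, (inv_mul_cancel _).symm]
  · obtain ⟨rfl, rfl⟩ : a = 4 ∧ b = 4 := by omega
    rwa [show 4 / 2 = 2 from rfl, _root_.sq, SqCl.mul_self] at c3

end H82.Ore
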