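/- ORE tower, chapter 1: counting points on quadrics with Gauss sums. -/
import Cfsg.Agent.H56.OreSpec
import Mathlib.NumberTheory.LegendreSymbol.Complex

set_option autoImplicit false
set_option linter.unusedSectionVars false

namespace H82.OreCnt

open Module QuadraticMap H56.Ore Finset

universe u

section
variable {F V : Type*} [Field F] [Fintype F] [AddCommGroup V] [Module F V] [Fintype V]
  {ψ : AddChar F ℂ}

open Classical in
theorem sum_lin (hψ : ψ.IsPrimitive) (l : V →ₗ[F] F) :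
    ∑ v, ψ (l v) = if l = 0 then (Fintype.card V : ℂ) else 0 := by
  split_ifs with h
  · simp [h]
  · obtain ⟨v, hv⟩ : ∃ v, l v ≠ 0 := by
      by_contra hc
      push Not at hc
      exact h (LinearMap.ext hc)
    obtain ⟨a, ha⟩ := AddChar.ne_one_iff.1 (hψ hv)
    refine AddChar.sum_eq_zero_of_ne_one (ψ := ψ.compAddMonoidHom l.toAddMonoidHom)
      (AddChar.ne_one_iff.2 ⟨a • v, ?_⟩)
    simpa [mul_comm] using ha

/-- The Gauss sum. -/
noncomputable def gs (ψ : AddChar F ℂ) (φ : QuadraticForm F V) : ℂ := ∑ v, ψ (φ v)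

theorem card_V : (Fintype.card V : ℝ) = (Fintype.card F : ℝ) ^ finrank F V := by
  rw [Module.card_eq_pow_finrank (K := F) (V := V)]; push_cast; rfl

theorem norm_gs (hψ : ψ.IsPrimitive) (φ : QuadraticForm F V) {r : ℝ} (hr : 0 ≤ r)
    (hq : r ^ 2 = Fintype.card F) : ‖gs ψ φ‖ ≤ r ^ (finrank F V + rd φ) := by
  classical
  have h1 : gs ψ φ * (starRingEnd ℂ) (gs ψ φ) =
      ∑ d, ψ (φ d) * if φ.polarBilin d = 0 then (Fintype.card V : ℂ) else 0 := by
    unfold gs
    rw [map_sum, sum_mul_sum, sum_comm]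
    have : ∀ v, ∑ w, ψ (φ w) * (starRingEnd ℂ) (ψ (φ v)) =
        ∑ d, ψ (φ d) * ψ (φ.polarBilin d v) := fun v => by
      rw [← Equiv.sum_comp (Equiv.addRight v)]
      refine sum_congr rfl fun d _ => ?_
      rw [← AddChar.map_neg_eq_conj, ← AddChar.map_add_eq_mul, ← AddChar.map_add_eq_mul]
      congr 1
      simp only [Equiv.coe_addRight, polarBilin_apply_apply, polar]
      ring
    rw [sum_congr rfl fun v _ => this v, sum_comm]
    refine sum_congr rfl fun d _ => ?_
    rw [← mul_sum, sum_lin hψ]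
  have h2 : ‖gs ψ φ‖ ^ 2 ≤ (r ^ (finrank F V + rd φ)) ^ 2 := by
    have h3 : ‖gs ψ φ‖ ^ 2 = ‖gs ψ φ * (starRingEnd ℂ) (gs ψ φ)‖ := by
      rw [norm_mul, RCLike.norm_conj, pow_two]
    rw [h3, h1]
    refine (norm_sum_le _ _).trans (le_of_eq ?_)
    have h4 : ∀ d, ‖ψ (φ d) * if φ.polarBilin d = 0 then (Fintype.card V : ℂ) else 0‖ =
        if d ∈ LinearMap.ker φ.polarBilin then (Fintype.card V : ℝ) else 0 := fun d => by
      rw [norm_mul, AddChar.norm_apply, one_mul, LinearMap.mem_ker]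
      split_ifs <;> simp
    rw [sum_congr rfl fun d _ => h4 d, ← sum_filter, sum_const, nsmul_eq_mul,
      ← Fintype.card_subtype, card_V (F := F) (V := V),
      card_V (F := F) (V := LinearMap.ker φ.polarBilin), ← hq, rd]
    ring
  exact (pow_le_pow_iff_left₀ (norm_nonneg _) (pow_nonneg hr _) two_ne_zero).1 h2

theorem rd_smul (φ : QuadraticForm F V) {a : F} (ha : a ≠ 0) : rd (a • φ) = rd φ := by
  unfold rd
  suffices h : LinearMap.ker (a • φ).polarBilin = LinearMap.ker φ.polarBilin by rw [h]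
  ext x
  simp only [LinearMap.mem_ker, LinearMap.ext_iff, polarBilin_apply_apply, LinearMap.zero_apply]
  refine forall_congr' fun y => ?_
  have : polar (a • φ) x y = a * polar φ x y := by
    simp only [polar, _root_.smul_apply, smul_eq_mul]; ring
  rw [this, mul_eq_zero, or_iff_right ha]

open Classical in
theorem sum_ind (hψ : ψ.IsPrimitive) (x : F) :
    ∑ a, ψ (a * x) = if x = 0 then (Fintype.card F : ℂ) else 0 := by
  rw [AddChar.sum_mulShift x hψ]; split_ifs <;> simp

theorem gs_zero : gs ψ (0 : QuadraticForm F V) = Fintype.card V := by simp [gs]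

open Classical in
/-- The character sum expression of the number of points. -/
theorem count2 (hψ : ψ.IsPrimitive) (Q Q' : QuadraticForm F V) (c : F) :
    (Fintype.card F : ℂ) ^ 2 * Nat.card {v : V // Q v = c ∧ Q' v = 0} =
      ∑ b : F, ∑ a : F, ψ (-(a * c)) * gs ψ (a • Q + b • Q') := by
  have h : ∀ b a : F, ψ (-(a * c)) * gs ψ (a • Q + b • Q') =
      ∑ v, ψ (a * (Q v - c)) * ψ (b * Q' v) := fun b a => by
    rw [gs, mul_sum]
    refine sum_congr rfl fun v _ => ?_
    rw [← AddChar.map_add_eq_mul, ← AddChar.map_add_eq_mul]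
    congr 1
    simp only [_root_.add_apply, _root_.smul_apply, smul_eq_mul]
    ring
  simp only [h]
  rw [sum_congr rfl fun b _ => sum_comm, sum_comm]
  have h2 : ∀ v, ∑ b : F, ∑ a : F, ψ (a * (Q v - c)) * ψ (b * Q' v) =
      if Q v = c ∧ Q' v = 0 then (Fintype.card F : ℂ) ^ 2 else 0 := fun v => by
    rw [sum_comm, ← sum_mul_sum, sum_ind hψ, sum_ind hψ, sub_eq_zero]
    by_cases h1 : Q v = c <;> by_cases h2 : Q' v = 0 <;> simp [h1, h2, pow_two]
  rw [sum_congr rfl fun v _ => h2 v, ← sum_filter, sum_const, nsmul_eq_mul,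
    ← Fintype.card_subtype, Nat.card_eq_fintype_card, mul_comm]

open Classical in
theorem bound0 (hψ : ψ.IsPrimitive) (Q : QuadraticForm F V) (c : F) {r : ℝ} (hr : 0 ≤ r)
    (hq : r ^ 2 = Fintype.card F) :
    ‖∑ a : F, ψ (-(a * c)) * gs ψ (a • Q) - (r ^ (2 * finrank F V) : ℝ)‖ ≤
      (r ^ 2 - 1) * r ^ (finrank F V + rd Q) := by
  rw [← add_sum_erase _ _ (mem_univ 0), zero_smul, gs_zero, zero_mul, neg_zero,
    AddChar.map_zero_eq_one, one_mul, pow_mul, hq, ← card_V (F := F) (V := V)]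
  push_cast
  rw [add_sub_cancel_left]
  refine (norm_sum_le _ _).trans ((sum_le_card_nsmul _ _ (r ^ (finrank F V + rd Q)) ?_).trans
    (le_of_eq ?_))
  · intro a ha
    rw [norm_mul, AddChar.norm_apply, one_mul, ← rd_smul Q (ne_of_mem_erase ha)]
    exact norm_gs hψ _ hr hq
  · rw [card_erase_of_mem (mem_univ _), card_univ, nsmul_eq_mul,
      Nat.cast_sub Fintype.card_pos, Nat.cast_one]

end

theorem jobCnt1 : JobCnt1.{u} := by
  intro F V _ _ _ _ _ Q c r _ hr hq
  classical
  have : Finite V := Module.finite_of_finite F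
  let : Fintype V := Fintype.ofFinite V
  have hψ := AddChar.FiniteField.primitiveChar_to_Complex_isPrimitive F
  have h1 := count2 hψ Q 0 c
  have h2 := bound0 hψ Q c hr hq
  simp only [smul_zero, add_zero, sum_const, card_univ, nsmul_eq_mul, _root_.zero_apply,
    and_true] at h1
  rw [pow_two, mul_assoc] at h1
  rw [← mul_left_cancel₀ (Nat.cast_ne_zero.2 Fintype.card_ne_zero) h1] at h2
  have h3 : ((Fintype.card F : ℂ) * (Nat.card {v : V // Q v = c} : ℂ) -
      (r ^ (2 * finrank F V) : ℝ)) = ((r ^ 2 * Nat.card {v : V // Q v = c} -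
        r ^ (2 * finrank F V) : ℝ) : ℂ) := by rw [hq]; push_cast; ring
  rw [h3, Complex.norm_real] at h2
  linarith [le_abs_self (r ^ 2 * Nat.card {v : V // Q v = c} - r ^ (2 * finrank F V)),
    Real.norm_eq_abs (r ^ 2 * Nat.card {v : V // Q v = c} - r ^ (2 * finrank F V))]

theorem jobCnt2 : JobCnt2.{u} := by
  intro F V _ _ _ _ _ Q Q' c r _ hr hq
  classical
  have : Finite V := Module.finite_of_finite F
  let : Fintype V := Fintype.ofFinite V
  have hψ := AddChar.FiniteField.primitiveChar_to_Complex_isPrimitive F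
  set ψ := AddChar.FiniteField.primitiveChar_to_Complex F
  have h1 := count2 hψ Q Q' c
  have h2 := bound0 hψ Q c hr hq
  rw [← add_sum_erase _ _ (mem_univ 0)] at h1
  simp only [zero_smul, add_zero] at h1
  have h4 : ‖∑ b ∈ univ.erase (0 : F), ∑ a : F, ψ (-(a * c)) * gs ψ (a • Q + b • Q')‖ ≤
      (r ^ 2 - 1) * ∑ μ : F, r ^ (finrank F V + rd (Q' - μ • Q)) := by
    refine (norm_sum_le _ _).trans ((sum_le_card_nsmul _ _
      (∑ μ : F, r ^ (finrank F V + rd (Q' - μ • Q))) ?_).trans (le_of_eq ?_))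
    · intro b hb
      have hb0 := ne_of_mem_erase hb
      rw [← Equiv.sum_comp (Equiv.mulLeft₀ (-b) (neg_ne_zero.2 hb0))]
      refine (norm_sum_le _ _).trans (sum_le_sum fun μ _ => ?_)
      have e : (Equiv.mulLeft₀ (-b) (neg_ne_zero.2 hb0) μ) • Q + b • Q' = b • (Q' - μ • Q) := by
        ext v
        simp only [Equiv.mulLeft₀_apply, _root_.add_apply, _root_.smul_apply,
          _root_.sub_apply, smul_eq_mul]
        ring
      rw [norm_mul, AddChar.norm_apply, one_mul, e, ← rd_smul _ hb0]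
      exact norm_gs hψ _ hr hq
    · rw [card_erase_of_mem (mem_univ _), card_univ, nsmul_eq_mul,
        Nat.cast_sub Fintype.card_pos, Nat.cast_one, hq]
  have h3 : ((r ^ 4 * Nat.card {v : V // Q v = c ∧ Q' v = 0} - r ^ (2 * finrank F V) : ℝ) : ℂ) =
      (∑ a : F, ψ (-(a * c)) * gs ψ (a • Q) - (r ^ (2 * finrank F V) : ℝ)) +
      ∑ b ∈ univ.erase (0 : F), ∑ a : F, ψ (-(a * c)) * gs ψ (a • Q + b • Q') := by
    rw [sub_add_eq_add_sub, ← h1, show r ^ 4 = (r ^ 2) ^ 2 by ring, hq]; push_cast; ring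
  have h5 := congrArg norm h3
  rw [Complex.norm_real, Real.norm_eq_abs] at h5
  have h6 := (norm_add_le _ _).trans (add_le_add h2 h4)
  rw [← h5] at h6
  linarith [neg_abs_le (r ^ 4 * Nat.card {v : V // Q v = c ∧ Q' v = 0} - r ^ (2 * finrank F V))]

end H82.OreCnt
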